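import Cfsg.Agent.Lib.OrderDegrees.BlockThree.Main

/-!
# The permutation group on three blocks of three points
-/

set_option autoImplicit false
set_option synthInstance.maxSize 2000

namespace CfsgLib.OrderDegrees.BlockThree

/-- The block of a point. -/
def blk (i : Fin 9) : ℕ := i.val / 3

/-- The permutations preserving each block. -/
def blockGroup : Subgroup (Equiv.Perm (Fin 9)) where
  carrier := {σ | ∀ i, blk (σ i) = blk i}
  one_mem' _ := rfl
  mul_mem' {a b} ha hb i := by rw [Equiv.Perm.mul_apply, ha, hb]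
  inv_mem' {a} ha i := by
    have := ha (a⁻¹ i)
    rw [Equiv.Perm.coe_inv, Equiv.apply_symm_apply] at this
    exact this.symm

/-- The point `3 k + j`. -/
def pt (k j : Fin 3) : Fin 9 := ⟨3 * k.val + j.val, by omega⟩

/-- The position of a point inside its block. -/
def pos (i : Fin 9) : Fin 3 := ⟨i.val % 3, Nat.mod_lt _ (by norm_num)⟩

theorem pt_pos (σ : blockGroup) (k j : Fin 3) :
    pt k (pos ((σ : Equiv.Perm (Fin 9)) (pt k j))) = (σ : Equiv.Perm (Fin 9)) (pt k j) := by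
  have h := σ.2 (pt k j)
  apply Fin.ext
  simp only [blk, pt, pos] at h ⊢
  omega

theorem pos_pt (k j : Fin 3) : pos (pt k j) = j := by
  apply Fin.ext
  simp only [pos, pt]
  omega

/-- The block coordinate. -/
def blockPerm (σ : blockGroup) (k : Fin 3) : Equiv.Perm (Fin 3) where
  toFun j := pos ((σ : Equiv.Perm (Fin 9)) (pt k j))
  invFun j := pos ((σ⁻¹ : blockGroup).1 (pt k j))
  left_inv j := by
    show pos ((σ⁻¹ : blockGroup).1 (pt k (pos ((σ : Equiv.Perm (Fin 9)) (pt k j))))) = j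
    rw [pt_pos]
    simp [pos_pt]
  right_inv j := by
    show pos ((σ : Equiv.Perm (Fin 9)) (pt k (pos ((σ⁻¹ : blockGroup).1 (pt k j))))) = j
    rw [pt_pos]
    simp [pos_pt]

/-- The block coordinates. -/
def coords : blockGroup →* Q3 :=
  MonoidHom.mk' blockPerm fun a b => funext fun k => Equiv.ext fun j => by
    show pos ((a * b : blockGroup).1 (pt k j)) =
      pos ((a : Equiv.Perm (Fin 9)) (pt k (pos ((b : Equiv.Perm (Fin 9)) (pt k j)))))
    rw [pt_pos]
    rfl

theorem coords_injective : Function.Injective coords := by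
  intro a b h
  refine Subtype.ext (Equiv.ext fun i => ?_)
  have hi : i = pt ⟨i.val / 3, by omega⟩ (pos i) := by
    apply Fin.ext; simp only [pt, pos]; omega
  have e := congrFun (congrArg DFunLike.coe (congrFun h ⟨i.val / 3, by omega⟩)) (pos i)
  change pos ((a : Equiv.Perm (Fin 9)) _) = pos ((b : Equiv.Perm (Fin 9)) _) at e
  rw [hi, ← pt_pos, ← pt_pos b, e]

/-- The generating set. -/
def gens : Set (Equiv.Perm (Fin 9)) :=
  {Equiv.swap (0 : Fin 9) 1 * Equiv.swap 1 2, Equiv.swap (3 : Fin 9) 4 * Equiv.swap 4 5,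
    Equiv.swap (6 : Fin 9) 7 * Equiv.swap 7 8, Equiv.swap (0 : Fin 9) 1 * Equiv.swap 3 4,
    Equiv.swap (0 : Fin 9) 1 * Equiv.swap 6 7}

/-- The five generators, in the block group. -/
def gen (n : Fin 5) : Equiv.Perm (Fin 9) :=
  match n with
  | 0 => Equiv.swap (0 : Fin 9) 1 * Equiv.swap 1 2
  | 1 => Equiv.swap (3 : Fin 9) 4 * Equiv.swap 4 5
  | 2 => Equiv.swap (6 : Fin 9) 7 * Equiv.swap 7 8
  | 3 => Equiv.swap (0 : Fin 9) 1 * Equiv.swap 3 4
  | 4 => Equiv.swap (0 : Fin 9) 1 * Equiv.swap 6 7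

theorem gen_mem_block : ∀ n, gen n ∈ blockGroup := by
  intro n i
  revert i n
  decide +kernel

theorem gens_eq {σ : Equiv.Perm (Fin 9)} (h : σ ∈ gens) : ∃ n, σ = gen n := by
  simp only [gens, Set.mem_insert_iff, Set.mem_singleton_iff] at h
  rcases h with rfl | rfl | rfl | rfl | rfl
  exacts [⟨0, rfl⟩, ⟨1, rfl⟩, ⟨2, rfl⟩, ⟨3, rfl⟩, ⟨4, rfl⟩]

theorem gen_mem (n : Fin 5) : gen n ∈ Subgroup.closure gens := by
  refine Subgroup.subset_closure ?_
  fin_cases n <;> simp [gen, gens]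

theorem closure_le : Subgroup.closure gens ≤ blockGroup :=
  (Subgroup.closure_le _).2 fun σ h => by
    obtain ⟨n, rfl⟩ := gens_eq h
    exact gen_mem_block n

theorem coords_gen :
    coords ⟨gen 0, gen_mem_block 0⟩ = cvec 0 ∧ coords ⟨gen 1, gen_mem_block 1⟩ = cvec 1 ∧
    coords ⟨gen 2, gen_mem_block 2⟩ = cvec 2 ∧
    coords (⟨gen 3, gen_mem_block 3⟩ * ⟨gen 4, gen_mem_block 4⟩) = evec 0 ∧
    coords ⟨gen 4, gen_mem_block 4⟩ = evec 1 ∧ coords ⟨gen 3, gen_mem_block 3⟩ = evec 2 ∧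
    ∀ n, EvenTriple (coords ⟨gen n, gen_mem_block n⟩) := by decide +kernel

theorem even_coords (σ : Equiv.Perm (Fin 9)) (h : σ ∈ Subgroup.closure gens) :
    EvenTriple (coords ⟨σ, closure_le h⟩) := by
  induction h using Subgroup.closure_induction with
  | mem x hx =>
    obtain ⟨n, rfl⟩ := gens_eq hx
    exact coords_gen.2.2.2.2.2.2 n
  | one =>
    have e : (⟨1, closure_le (Subgroup.one_mem _)⟩ : blockGroup) = 1 := Subtype.ext rfl
    rw [e, map_one]
    simp [EvenTriple]
  | mul x y hx hy ihx ihy =>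
    have e : (⟨x * y, closure_le (mul_mem hx hy)⟩ : blockGroup) =
        ⟨x, closure_le hx⟩ * ⟨y, closure_le hy⟩ := Subtype.ext rfl
    rw [e, map_mul]
    simp only [EvenTriple, Pi.mul_apply, map_mul] at ihx ihy ⊢
    have : ∀ a b c d e f : ℤˣ, a * b * (c * d) * (e * f) = a * c * e * (b * d * f) :=
      fun a b c d e f => by simp only [mul_comm, mul_left_comm]
    rw [this, ihx, ihy, one_mul]
  | inv x hx ih =>
    have e : (⟨x⁻¹, closure_le (inv_mem hx)⟩ : blockGroup) = (⟨x, closure_le hx⟩ : blockGroup)⁻¹ :=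
      Subtype.ext rfl
    rw [e, map_inv]
    simp only [EvenTriple, Pi.inv_apply, map_inv, Int.units_inv_eq_self] at ih ⊢
    exact ih

/-- The coordinates of an abstract copy. -/
theorem exists_setting {G : Type*} [Group G] [Fintype G] (H : Subgroup G)
    (e : ↥H ≃* ↥(Subgroup.closure gens)) (T : Subgroup G) (hTH : T ≤ H) (hT : Nat.card T = 27)
    (hN : Subgroup.normalizer (T : Set G) = H)
    (hC : ∀ t ∈ T, t ≠ 1 → Subgroup.centralizer ({t} : Set G) ≤ H) :
    ∃ S : Setting G, S.H = H := by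
  let q : H →* Q3 := (coords.comp (Subgroup.inclusion closure_le)).comp e.toMonoidHom
  have hq : Function.Injective q :=
    (coords_injective.comp (Subgroup.inclusion_injective closure_le)).comp e.injective
  have lift : ∀ (σ : Equiv.Perm (Fin 9)) (hσ : σ ∈ Subgroup.closure gens),
      q (e.symm ⟨σ, hσ⟩) = coords ⟨σ, closure_le hσ⟩ := fun σ hσ => by
    simp [q, Subgroup.inclusion]
  obtain ⟨h0, h1, h2, h3, h4, h5, -⟩ := coords_gen
  refine ⟨⟨H, T, q, hq, fun h => even_coords _ (e h).2, fun k => ?_, fun k => ?_, hTH, hT, hN, hC⟩, rfl⟩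
  · fin_cases k
    · exact ⟨_, (lift _ (gen_mem 0)).trans h0⟩
    · exact ⟨_, (lift _ (gen_mem 1)).trans h1⟩
    · exact ⟨_, (lift _ (gen_mem 2)).trans h2⟩
  · fin_cases k
    · exact ⟨_, (lift _ (mul_mem (gen_mem 3) (gen_mem 4))).trans h3⟩
    · exact ⟨_, (lift _ (gen_mem 4)).trans h4⟩
    · exact ⟨_, (lift _ (gen_mem 3)).trans h5⟩

end CfsgLib.OrderDegrees.BlockThree
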